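import Mathlib

/-! Diophantine facts for simple groups of order `2 ^ a * 15 * q ^ b`. -/

set_option autoImplicit false

namespace H23.Q15

theorem geom_odd (x : ℤ) (hx : Odd x) (j : ℕ) : (∑ i ∈ Finset.range j, x ^ i) % 2 = j % 2 := by
  induction j with
  | zero => simp
  | succ j ih =>
    have := Int.odd_iff.1 (hx.pow (n := j))
    rw [Finset.sum_range_succ]; push_cast; omega

theorem odd_dvd {u i m : ℕ} (hu : Odd u) (h : u ∣ 2 ^ i * m) : u ∣ m :=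
  (Nat.Coprime.pow_right i (Nat.coprime_two_right.2 hu)).dvd_of_dvd_mul_left h

theorem pow_one_of {q j v i : ℕ} (hq : q.Prime) (h7 : 7 ≤ q) (hj : j ≠ 0) (hv : v ∣ 2 ^ i * 5)
    (h : q ^ j = v + 1 ∨ v = q ^ j + 1) : j = 1 := by
  have hodd : Odd q := hq.odd_of_ne_two (by omega)
  have h3 : ¬ 3 ∣ v := fun h3 => by
    have := odd_dvd (by decide) (h3.trans hv); omega
  rcases Nat.even_or_odd' j with ⟨k, rfl | rfl⟩
  · exfalso
    have hx3 : ¬ 3 ∣ q ^ k := fun h' => by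
      have := (Nat.prime_dvd_prime_iff_eq Nat.prime_three hq).1 (Nat.prime_three.dvd_of_dvd_pow h')
      omega
    have hx7 : 7 ≤ q ^ k := h7.trans (Nat.le_self_pow (by omega) q)
    obtain ⟨t, ht⟩ := hodd.pow (n := k)
    rw [pow_mul', ht] at h
    rw [ht] at hx3 hx7
    rcases h with h | h
    · have h1 : v = 4 * (t * (t + 1)) := by nlinarith
      obtain ⟨w, hw | hw⟩ : ∃ w, t = 3 * w ∨ t = 3 * w + 2 := ⟨t / 3, by omega⟩
      · exact h3 ⟨4 * (w * (t + 1)), by rw [h1]; nth_rewrite 1 [hw]; ring⟩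
      · exact h3 ⟨4 * (t * (w + 1)), by rw [h1]; nth_rewrite 2 [hw]; ring⟩
    · have h1 : v = 2 * (2 * (t * (t + 1)) + 1) := by nlinarith
      have h2 := Nat.le_of_dvd (by norm_num) (odd_dvd (odd_two_mul_add_one (t * (t + 1)))
        ((Dvd.intro_left 2 h1.symm).trans hv))
      nlinarith
  · by_contra hk
    have hk1 : 1 ≤ k := by omega
    have key : ∀ x : ℤ, x.natAbs = q → (x ^ (2 * k + 1) - 1).natAbs = v → v ≤ 5 * (q + 1) := by
      intro x hx hxv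
      have h1 := geom_sum_mul x (2 * k + 1)
      have h2 := geom_odd x (Int.natAbs_odd.1 (hx ▸ hodd)) (2 * k + 1)
      have h4 : Odd (∑ i ∈ Finset.range (2 * k + 1), x ^ i).natAbs :=
        Int.natAbs_odd.2 (Int.odd_iff.2 (by rw [h2]; push_cast; omega))
      rw [← h1, Int.natAbs_mul] at hxv
      have h5 := Nat.le_of_dvd (by norm_num) (odd_dvd h4 ((Dvd.intro _ hxv).trans hv))
      rw [← hxv]
      exact Nat.mul_le_mul h5 (by omega)
    have h6 : q ^ 3 ≤ q ^ (2 * k + 1) := Nat.pow_le_pow_right (by omega) (by omega)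
    have h8 : v ≤ 5 * (q + 1) := by
      rcases h with h | h
      · refine key q (by simp) ?_
        have : (q : ℤ) ^ (2 * k + 1) = v + 1 := by exact_mod_cast h
        rw [this]; simp
      · refine key (-q) (by simp) ?_
        have : (v : ℤ) = (q : ℤ) ^ (2 * k + 1) + 1 := by exact_mod_cast h
        rw [Odd.neg_pow (odd_two_mul_add_one k)]
        generalize (q : ℤ) ^ (2 * k + 1) = w at *
        omega
    have h9 : 49 * q ≤ q ^ 3 := by
      rw [pow_succ, pow_two]; exact Nat.mul_le_mul_right q (Nat.mul_le_mul h7 h7)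
    omega

theorem aur {q j i : ℕ} (hq : q.Prime) (h7 : 7 ≤ q) (hj : j ≠ 0)
    (h : 5 * q ^ j = 2 ^ i + 1 ∨ 2 ^ i = 5 * q ^ j + 1) : q = 13 ∧ 2 ^ i = 64 ∧ 5 * q ^ j = 65 := by
  have hx3 : ¬ 3 ∣ q ^ j := fun h' => by
    have := (Nat.prime_dvd_prime_iff_eq Nat.prime_three hq).1 (Nat.prime_three.dvd_of_dvd_pow h')
    omega
  have h16 : ∀ l, 16 ^ l % 15 = 1 := fun l => by rw [Nat.pow_mod]; simp
  obtain ⟨l, hl⟩ : ∃ l, i = 4 * l ∨ i = 4 * l + 1 ∨ i = 4 * l + 2 ∨ i = 4 * l + 3 := ⟨i / 4, by omega⟩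
  have e : 2 ^ (4 * l) = 16 ^ l := by rw [pow_mul]; rfl
  have h1 := h16 l
  have hi : i = 4 * l + 2 ∧ 5 * q ^ j = 2 ^ i + 1 := by
    have e1 : 2 ^ (4 * l + 1) = 2 * 16 ^ l := by rw [pow_succ, e]; ring
    have e2 : 2 ^ (4 * l + 2) = 4 * 16 ^ l := by rw [pow_add, e]; ring
    have e3 : 2 ^ (4 * l + 3) = 8 * 16 ^ l := by rw [pow_add, e]; ring
    rcases hl with rfl | rfl | rfl | rfl
    · rw [e] at h; omega
    · rw [e1] at h; omega
    · rw [e2] at h ⊢; omega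
    · rw [e3] at h; omega
  obtain ⟨rfl, h⟩ := hi
  have hy : 2 ^ (4 * l + 2) = 4 * (2 ^ l) ^ 4 := by ring
  obtain ⟨y, hy'⟩ : ∃ y, 2 ^ l = y + 1 := ⟨2 ^ l - 1, by have := Nat.one_le_two_pow (n := l); omega⟩
  have hf : 5 * q ^ j = (2 * y * (y + 1) + 1) * (2 * (y + 1) * (y + 2) + 1) := by
    rw [h, hy, hy']; ring
  have hq7 : 7 ≤ q ^ j := h7.trans (Nat.le_self_pow hj q)
  have five : ∀ A B : ℕ, 5 * q ^ j = A * B → ¬ q ∣ A → A ≤ 5 := fun A B hAB hA =>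
    Nat.le_of_dvd (by norm_num) ((Nat.Coprime.pow_right j
      ((hq.coprime_iff_not_dvd).2 hA).symm).dvd_of_dvd_mul_right (Dvd.intro B hAB.symm))
  by_cases hA : q ∣ 2 * y * (y + 1) + 1
  · by_cases hB : q ∣ 2 * (y + 1) * (y + 2) + 1
    · exfalso
      have h2 : q ∣ 2 ^ (l + 2) := by
        have := Nat.dvd_sub hB hA
        rwa [show 2 * (y + 1) * (y + 2) + 1 - (2 * y * (y + 1) + 1) = 2 ^ (l + 2) by
          rw [pow_add, hy']; apply Nat.sub_eq_of_eq_add; ring] at this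
      have := Nat.le_of_dvd two_pos (hq.dvd_of_dvd_pow h2)
      omega
    · have := five _ _ (hf.trans (mul_comm _ _)) hB
      have hy0 : y = 0 := by nlinarith
      subst hy0; omega
  · have := five _ _ hf hA
    have hy1 : y ≤ 1 := by nlinarith
    have hy1 : y = 1 := by
      by_contra hne
      have : y = 0 := by omega
      subst this; omega
    subst hy1
    have h13 : q ^ j = 13 := by omega
    refine ⟨?_, by rw [hy, hy']; norm_num, by omega⟩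
    exact (Nat.prime_dvd_prime_iff_eq hq (by norm_num)).1 (h13 ▸ dvd_pow_self q hj)

theorem dio {q a b n : ℕ} (hq : q.Prime) (h7 : 7 ≤ q) (h2 : 2 ≤ n) (h3 : n % 3 = 1)
    (h1 : n ∣ 2 ^ a * (5 * q ^ b)) (h1' : n + 1 ∣ 2 ^ a * (5 * q ^ b)) :
    n = 4 ∨ n + 1 = q ∨ n = q ∨ (q = 13 ∧ n = 64) := by
  have key : ∀ u v : ℕ, Odd u → u ∣ 2 ^ a * (5 * q ^ b) → v ∣ 2 ^ a * (5 * q ^ b) →
      (u = v + 1 ∨ v = u + 1) → u = 1 ∨ u = 5 ∨ u = q ∨ (q = 13 ∧ v = 64 ∧ u = 65) := by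
    intro u v hu hud hvd h
    have hc : Nat.Coprime u v := by rcases h with rfl | rfl <;> simp
    obtain ⟨u1, u2, d1, d2, rfl⟩ := (Nat.dvd_mul).1 (odd_dvd hu hud)
    obtain ⟨j, -, rfl⟩ := (Nat.dvd_prime_pow hq).1 d2
    have h5 := (Nat.dvd_prime (by norm_num : Nat.Prime 5)).1 d1
    by_cases hj : j = 0
    · subst hj; simp only [pow_zero, mul_one]; omega
    have hvq : Nat.Coprime v (q ^ b) := Nat.Coprime.pow_right b
      (Nat.Coprime.coprime_dvd_left ((dvd_pow_self q hj).mul_left u1) hc).symm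
    have hv : v ∣ 2 ^ a * 5 := hvq.dvd_of_dvd_mul_right (by rwa [mul_assoc])
    rcases h5 with rfl | rfl
    · rw [one_mul] at h ⊢
      rw [pow_one_of hq h7 hj hv h, pow_one]; omega
    · obtain ⟨i, -, rfl⟩ := (Nat.dvd_prime_pow Nat.prime_two).1
        ((Nat.Coprime.coprime_dvd_left (Dvd.intro _ rfl) hc).symm.dvd_of_dvd_mul_right hv)
      have := aur hq h7 hj h
      omega
  rcases Nat.even_or_odd n with he | ho
  · have := key (n + 1) n he.add_one h1' h1 (Or.inl rfl); omega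
  · have := key n (n + 1) ho h1 h1' (Or.inr rfl); omega

/-- candidate degrees -/
def cand : List ℕ := [4, 6, 24, 26, 39, 104, 156, 169, 676, 1014, 4056, 16, 64, 256, 1024, 4096, 96,
  384, 1536, 416, 1664, 624, 2496, 2704]

/-- signed degree -/
def sgd (d : ℕ) : ℤ := if d % 5 = 1 then d else -d

theorem cand_fact {a d : ℕ} (h : d ∣ 2 ^ a * 507) (h2 : 2 ≤ d) (h5 : d % 5 = 1 ∨ d % 5 = 4) :
    (d % 2 = 0 ∨ d = 39 ∨ d = 169) ∧ (d % 16 = 0 ∨ d ≤ 4056) ∧ (d ≤ 4400 → d ∈ cand) := by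
  obtain ⟨u, o, d1, d2, rfl⟩ := (Nat.dvd_mul).1 h
  obtain ⟨s, -, rfl⟩ := (Nat.dvd_prime_pow Nat.prime_two).1 d1
  have ho : o ∈ [1, 3, 13, 39, 169, 507] := by
    have : ∀ o ∈ Nat.divisors 507, o ∈ [1, 3, 13, 39, 169, 507] := by decide +kernel
    exact this o (Nat.mem_divisors.2 ⟨d2, by norm_num⟩)
  rcases Nat.lt_or_ge s 13 with hs | hs
  · have : ∀ s < 13, ∀ o ∈ [1, 3, 13, 39, 169, 507], 2 ≤ 2 ^ s * o →
        (2 ^ s * o % 5 = 1 ∨ 2 ^ s * o % 5 = 4) →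
        (2 ^ s * o % 2 = 0 ∨ 2 ^ s * o = 39 ∨ 2 ^ s * o = 169) ∧
          (2 ^ s * o % 16 = 0 ∨ 2 ^ s * o ≤ 4056) ∧ (2 ^ s * o ≤ 4400 → 2 ^ s * o ∈ cand) := by
      decide +kernel
    exact this s hs o ho h2 h5
  · obtain ⟨t, rfl⟩ := Nat.exists_eq_add_of_le hs
    have e : 2 ^ (13 + t) * o = 8192 * (2 ^ t * o) := by ring
    rw [e] at h2 ⊢
    omega

theorem two_even {x y : ℕ} {s : ℤ} (hs : s = 102 ∨ s = 232) (bx : x % 16 = 0 ∨ x ≤ 4056)
    (by' : y % 16 = 0 ∨ y ≤ 4056) (h : sgd x + sgd y = s) : x ≤ 4400 ∧ y ≤ 4400 := by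
  unfold sgd at h
  split_ifs at h <;> omega

theorem sgd_mod (x : ℕ) : sgd x % 2 = x % 2 := by
  unfold sgd; split_ifs <;> omega

theorem five {a d1 d2 d3 : ℕ} (h1 : d1 ∣ 2 ^ a * 507) (h2 : d2 ∣ 2 ^ a * 507) (h3 : d3 ∣ 2 ^ a * 507)
    (l1 : 2 ≤ d1) (l2 : 2 ≤ d2) (l3 : 2 ≤ d3) (m1 : d1 % 5 = 1 ∨ d1 % 5 = 4)
    (m2 : d2 % 5 = 1 ∨ d2 % 5 = 4) (m3 : d3 % 5 = 1 ∨ d3 % 5 = 4)
    (h : sgd d1 + sgd d2 + sgd d3 = 63) :
    [d1, d2, d3].count 6 = 1 ∨ ([d1, d2, d3].count 24 = 1 ∧ 169 ∈ [d1, d2, d3]) := by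
  obtain ⟨a1, b1, c1⟩ := cand_fact h1 l1 m1
  obtain ⟨a2, b2, c2⟩ := cand_fact h2 l2 m2
  obtain ⟨a3, b3, c3⟩ := cand_fact h3 l3 m3
  have hb : d1 ≤ 4400 ∧ d2 ≤ 4400 ∧ d3 ≤ 4400 := by
    have s1 := sgd_mod d1
    have s2 := sgd_mod d2
    have s3 := sgd_mod d3
    have v1 : sgd 39 = -39 := by decide
    have v2 : sgd 169 = -169 := by decide
    by_cases p1 : d1 % 2 = 0
    · by_cases p2 : d2 % 2 = 0
      · have p3 : d3 = 39 ∨ d3 = 169 := by omega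
        have := two_even (s := 63 - sgd d3) (by rcases p3 with rfl | rfl <;> omega) b1 b2 (by omega)
        omega
      · have p3 : d2 = 39 ∨ d2 = 169 := by omega
        have := two_even (s := 63 - sgd d2) (by rcases p3 with rfl | rfl <;> omega) b1 b3 (by omega)
        omega
    · have p3 : d1 = 39 ∨ d1 = 169 := by omega
      have := two_even (s := 63 - sgd d1) (by rcases p3 with rfl | rfl <;> omega) b2 b3 (by omega)
      omega
  have : ∀ d1 ∈ cand, ∀ d2 ∈ cand, ∀ d3 ∈ cand, sgd d1 + sgd d2 + sgd d3 = 63 →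
      [d1, d2, d3].count 6 = 1 ∨ ([d1, d2, d3].count 24 = 1 ∧ 169 ∈ [d1, d2, d3]) := by
    decide +kernel
  exact this d1 (c1 hb.1) d2 (c2 hb.2.1) d3 (c3 hb.2.2) h

end H23.Q15
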